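import Cfsg.Agent.OrdDiv.Core

/-!
# S4247, sporadic rows: the numerical test (helper583)
-/

set_option autoImplicit false

namespace Cfsg.Agent.H583.DPi

open Cfsg.Agent.OrdDiv

/-- the numbers `N = ∏ s ^ j` with `s ^ j` congruent to `1` modulo `r` -/
def ns (r : ℕ) : List (ℕ × ℕ) → List ℕ
  | [] => [1]
  | x :: l => (ns r l).flatMap fun N => ((List.range (x.2 + 1)).filter fun j => x.1 ^ j % r == 1).map fun j => x.1 ^ j * N

theorem mem_ns {r : ℕ} (f : ℕ → ℕ) : ∀ (l : List (ℕ × ℕ)), (∀ x ∈ l, f x.1 ≤ x.2 ∧ x.1 ^ f x.1 % r = 1) →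
    ((l.map Prod.fst).map fun p => p ^ f p).prod ∈ ns r l
  | [], _ => by simp [ns]
  | x :: l, h => by
    have ih := mem_ns f l fun y hy => h y (List.mem_cons_of_mem _ hy)
    obtain ⟨h1, h2⟩ := h x List.mem_cons_self
    unfold ns
    rw [List.mem_flatMap]
    refine ⟨_, ih, ?_⟩
    rw [List.mem_map]
    refine ⟨f x.1, ?_, by simp⟩
    rw [List.mem_filter]
    exact ⟨List.mem_range.2 (by omega), by simp [h2]⟩

/-- the candidates for the order of a subgroup of order divisible by `r` -/
def hs (n : ℕ) (l : List (ℕ × ℕ)) (L : List ℕ) (r : ℕ) : List ℕ :=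
  (r :: L.filter fun o => o % r == 0 && o != n).flatMap fun o =>
    (List.range (n / r % r + 1)).flatMap fun d =>
      if n / r % r % (d * (o / r % r)) == 0 && d != 0 then
        ((ns r l).map fun N => N * o * d).filter fun h => n % h == 0
      else []

/-- factorization over a list of primes -/
theorem eq_prod {l : List (ℕ × ℕ)} (hnd : (l.map Prod.fst).Nodup) {m : ℕ} (hm : m ≠ 0)
    (h : ∀ p : ℕ, p.Prime → p ∣ m → p ∈ l.map Prod.fst) :
    m = ((l.map Prod.fst).map fun p => p ^ m.factorization p).prod := by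
  have h1 : m.factorization.prod (fun p k => p ^ k) = m := Nat.prod_factorization_pow_eq_self hm
  rw [Finsupp.prod_of_support_subset (s := (l.map Prod.fst).toFinset) _ _ _ (fun i _ => pow_zero i)] at h1
  · rw [← List.prod_toFinset _ hnd]
    exact h1.symm
  · intro p hp
    rw [List.mem_toFinset]
    have h2 : p ∈ m.primeFactors := by simpa using hp
    exact h p (Nat.prime_of_mem_primeFactors h2) (Nat.dvd_of_mem_primeFactors h2)

theorem mem_hs {n : ℕ} {l : List (ℕ × ℕ)} {L : List ℕ} {r : ℕ} (hv : valid l n = true)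
    (hnd : (l.map Prod.fst).Nodup) (hr : r.Prime) (hr2 : ¬ r ^ 2 ∣ n) {h N o d : ℕ} (hh : h = N * o * d)
    (hd : h ∣ n) (hN : ∀ s : ℕ, s.Prime → s ^ (N.factorization s) % r = 1)
    (ho : o = r ∨ (o ∈ L ∧ o ≠ n)) (hro : r ∣ o) (hrn : r ∣ n) (he : d * (o / r % r) ∣ n / r % r) : h ∈ hs n l L r := by
  have hn0 : n ≠ 0 := (valid_pos hv).ne'
  have hh0 : h ≠ 0 := ne_zero_of_dvd_ne_zero hn0 hd
  have hN0 : N ≠ 0 := by rintro rfl; exact hh0 (by rw [hh]; ring)
  have hd0 : d ≠ 0 := by rintro rfl; exact hh0 (by rw [hh]; ring)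
  have hNn : N ∣ n := (hh ▸ (Dvd.intro _ (by ring : N * (o * d) = N * o * d))).trans hd
  have hmem : ∀ p : ℕ, p.Prime → p ∣ N → p ∈ l.map Prod.fst := by
    intro p hp hpN
    obtain ⟨w, hw, -⟩ := exists_pair hv hp (j := 1) le_rfl (by rw [pow_one]; exact hpN.trans hNn)
    exact List.mem_map.2 ⟨_, hw, rfl⟩
  have hNns : N ∈ ns r l := by
    have h1 := mem_ns (r := r) (fun p => N.factorization p) l ?_
    · rw [← eq_prod hnd hN0 hmem] at h1
      exact h1
    · intro x hx
      have hxp : x.1.Prime := valid_prime hv _ hx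
      refine ⟨?_, hN _ hxp⟩
      by_contra hlt
      apply valid_exact hv _ hx
      refine (pow_dvd_pow x.1 (show x.2 + 1 ≤ N.factorization x.1 by omega)).trans ?_
      exact (Nat.ordProj_dvd N x.1).trans hNn
  have he0 : n / r % r ≠ 0 := by
    intro h0
    apply hr2
    obtain ⟨c, hc⟩ := Nat.dvd_of_mod_eq_zero h0
    obtain ⟨m, rfl⟩ := hrn
    rw [Nat.mul_div_cancel_left _ hr.pos] at hc
    exact ⟨c, by rw [hc]; ring⟩
  have hdle : d ≤ n / r % r := Nat.le_of_dvd (Nat.pos_of_ne_zero he0) ((dvd_mul_right _ _).trans he)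
  unfold hs
  rw [List.mem_flatMap]
  refine ⟨o, ?_, ?_⟩
  · rcases ho with ho | ho
    · rw [ho]; exact List.mem_cons_self
    · apply List.mem_cons_of_mem
      rw [List.mem_filter]
      refine ⟨ho.1, ?_⟩
      simp only [Bool.and_eq_true, beq_iff_eq, bne_iff_ne]
      exact ⟨Nat.mod_eq_zero_of_dvd hro, ho.2⟩
  · rw [List.mem_flatMap]
    refine ⟨d, List.mem_range.2 (by omega), ?_⟩
    rw [if_pos]
    · rw [List.mem_filter, List.mem_map]
      refine ⟨⟨N, hNns, hh.symm⟩, ?_⟩
      simp only [beq_iff_eq]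
      exact Nat.mod_eq_zero_of_dvd hd
    · simp only [Bool.and_eq_true, beq_iff_eq, bne_iff_ne]
      exact ⟨Nat.mod_eq_zero_of_dvd he, hd0⟩

/-- the sublists -/
def subs {α : Type} : List α → List (List α)
  | [] => [[]]
  | a :: l => subs l ++ (subs l).map (a :: ·)

theorem filter_mem_subs {α : Type} (q : α → Bool) : ∀ l : List α, l.filter q ∈ subs l
  | [] => by simp [subs]
  | a :: l => by
    have ih := filter_mem_subs q l
    unfold subs
    rw [List.filter_cons]
    split
    · exact List.mem_append.2 (Or.inr (List.mem_map.2 ⟨_, ih, rfl⟩))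
    · exact List.mem_append.2 (Or.inl ih)

/-- `x.1 ^ a = x.1 ^ (b + c)` with `x.1 ^ b ∣ e`, `r ∣ x.1 ^ c - 1` -/
def compat (r e : ℕ) (x : ℕ × ℕ) : Bool :=
  x.1 == r || (List.range (x.2 + 1)).any fun b => e % x.1 ^ b == 0 && x.1 ^ (x.2 - b) % r == 1

/-- a group of order `x.1 ^ x.2` may have an automorphism of order `y.1` -/
def link (x y : ℕ × ℕ) : Bool := (List.range x.2).any fun i => x.1 ^ (i + 1) % y.1 == 1

/-- non-nilpotent -/
def nn (T : List (ℕ × ℕ)) : Bool := T.any fun x => T.any fun y => x.1 != y.1 && link x y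

/-- the test for the pairs in `nf` -/
def nfOK (c k : ℕ) (T nf : List (ℕ × ℕ)) : Bool :=
  nf.all fun st => T.all fun x => x.1 != st.1 || ((T.all fun y => y.1 != st.2 || link x y || link y x) &&
    ((T.any fun y => y.1 == st.2) || k % (if c % st.2 == 0 then st.2 * st.2 else st.2) != 0))

/-- the whole test, with the tables `HL` of the orders of subgroups of order divisible by the isolated primes -/
def tst (n c j : ℕ) (HL : List (ℕ × List ℕ)) (nf T : List (ℕ × ℕ)) (k h : ℕ) : Bool :=
  prodl T * k * h == n && (T.all fun x => k % x.1 != 0 && h % x.1 != 0) && k % (2 ^ j * c) != 0 && nn T &&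
  nfOK c k T nf && HL.all fun p => if (T.any fun x => x.1 == p.1) then c % k == 0 && T.all (compat p.1 (n / p.1 % p.1))
    else p.2.contains h

/-- the odd part of a list -/
def oddl (l : List (ℕ × ℕ)) : List (ℕ × ℕ) := l.filter fun x => x.1 != 2

def chkA (n : ℕ) (l : List (ℕ × ℕ)) (c j : ℕ) (HL : List (ℕ × List ℕ)) (nf : List (ℕ × ℕ))
    (E : List (List ℕ × ℕ × ℕ)) : Bool :=
  HL.all fun p => (subs ((oddl l).filter (compat p.1 (n / p.1 % p.1)))).all fun T =>
    !(T.any fun x => x.1 == p.1) || (List.range c).all fun k =>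
      !(tst n c j HL nf T (k + 1) (n / (prodl T * (k + 1)))) ||
        E.contains (T.map Prod.fst, n / (prodl T * (k + 1)), k + 1)

def chkB (n : ℕ) (l : List (ℕ × ℕ)) (c j : ℕ) (HL : List (ℕ × List ℕ)) (nf : List (ℕ × ℕ))
    (E : List (List ℕ × ℕ × ℕ)) : Bool :=
  match HL with
  | [] => false
  | p :: _ => p.2.all fun h => (subs ((oddl l).filter fun x => h % x.1 != 0)).all fun T =>
      !(tst n c j HL nf T (n / (prodl T * h)) h) || E.contains (T.map Prod.fst, h, n / (prodl T * h))

/-- **the numerical theorem** -/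
theorem mem_of_chk {n : ℕ} {l : List (ℕ × ℕ)} {c j : ℕ} {HL : List (ℕ × List ℕ)} {nf : List (ℕ × ℕ)}
    {E : List (List ℕ × ℕ × ℕ)} (hn : n ≠ 0) (hA : chkA n l c j HL nf E = true) (hB : chkB n l c j HL nf E = true)
    (q : ℕ × ℕ → Bool) {k h : ℕ} (hc : c ≠ 0) (h2 : ∀ x ∈ l, q x = true → x.1 ≠ 2)
    (ht : tst n c j HL nf (l.filter q) k h = true) : ((l.filter q).map Prod.fst, h, k) ∈ E := by
  have ht' := ht
  unfold tst at ht'
  simp only [Bool.and_eq_true, beq_iff_eq] at ht'
  obtain ⟨⟨⟨⟨⟨h1, h3⟩, h4⟩, h5⟩, h6⟩, h7⟩ := ht'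
  have hP0 : prodl (l.filter q) ≠ 0 := by rintro h0; rw [h0] at h1; simp at h1; exact hn h1.symm
  have hk0 : k ≠ 0 := by rintro rfl; rw [mul_zero, zero_mul] at h1; exact hn h1.symm
  have hh0 : h ≠ 0 := by rintro rfl; rw [mul_zero] at h1; exact hn h1.symm
  have hfo : l.filter q = (oddl l).filter q := by
    unfold oddl
    rw [List.filter_filter]
    apply List.filter_congr
    intro x hx
    by_cases hq : q x = true
    · simp [hq, h2 x hx hq]
    · simp [hq]
  by_cases hex : ∃ p ∈ HL, ((l.filter q).any fun x => x.1 == p.1) = true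
  · obtain ⟨p, hp, hpT⟩ := hex
    rw [List.all_eq_true] at h7
    have h8 := h7 p hp
    rw [if_pos hpT, Bool.and_eq_true, beq_iff_eq, List.all_eq_true] at h8
    obtain ⟨hck, hco⟩ := h8
    have hkc : k ≤ c := Nat.le_of_dvd (Nat.pos_of_ne_zero hc) (Nat.dvd_of_mod_eq_zero hck)
    unfold chkA at hA
    rw [List.all_eq_true] at hA
    have h9 := hA p hp
    rw [List.all_eq_true] at h9
    have hmem : l.filter q ∈ subs ((oddl l).filter (compat p.1 (n / p.1 % p.1))) := by
      have h10 : l.filter q = ((oddl l).filter (compat p.1 (n / p.1 % p.1))).filter q := by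
        rw [hfo, List.filter_filter]
        apply List.filter_congr
        intro x hx
        by_cases hq : q x = true
        · have hxl : x ∈ l := (List.mem_filter.1 hx).1
          have := hco x (List.mem_filter.2 ⟨hxl, hq⟩)
          simp [hq, this]
        · simp [hq]
      rw [h10]
      exact filter_mem_subs q _
    have h10 := h9 _ hmem
    rw [hpT, Bool.not_true, Bool.false_or, List.all_eq_true] at h10
    have h11 := h10 (k - 1) (List.mem_range.2 (by omega))
    have h12 : k - 1 + 1 = k := by omega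
    rw [h12] at h11
    have h13 : n / (prodl (l.filter q) * k) = h := by
      rw [← h1]
      exact Nat.mul_div_cancel_left _ (Nat.pos_of_ne_zero (mul_ne_zero hP0 hk0))
    rw [h13, ht, Bool.not_true, Bool.false_or] at h11
    exact List.contains_iff_mem.1 h11
  · cases HL with
    | nil => unfold chkB at hB; simp at hB
    | cons p HL =>
      unfold chkB at hB
      simp only [List.all_eq_true] at hB h7
      have h8 := h7 p List.mem_cons_self
      have hno : ¬ (((l.filter q).any fun x => x.1 == p.1) = true) := fun h => hex ⟨p, List.mem_cons_self, h⟩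
      rw [if_neg hno] at h8
      have h9 := hB h (List.contains_iff_mem.1 h8)
      have hmem : l.filter q ∈ subs ((oddl l).filter fun x => h % x.1 != 0) := by
        have h10 : l.filter q = ((oddl l).filter fun x => h % x.1 != 0).filter q := by
          rw [hfo, List.filter_filter]
          apply List.filter_congr
          intro x hx
          by_cases hq : q x = true
          · have hxl : x ∈ l := (List.mem_filter.1 hx).1
            rw [List.all_eq_true] at h3
            have := h3 x (List.mem_filter.2 ⟨hxl, hq⟩)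
            rw [Bool.and_eq_true] at this
            simp only [hq, this.2, Bool.and_true]
          · simp [hq]
        rw [h10]
        exact filter_mem_subs q _
      have h10 := h9 _ hmem
      have h13 : n / (prodl (l.filter q) * h) = k := by
        rw [← h1]
        rw [show prodl (l.filter q) * k * h = prodl (l.filter q) * h * k by ring]
        exact Nat.mul_div_cancel_left _ (Nat.pos_of_ne_zero (mul_ne_zero hP0 hh0))
      rw [h13, ht, Bool.not_true, Bool.false_or] at h10
      exact List.contains_iff_mem.1 h10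

end Cfsg.Agent.H583.DPi
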