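import Cfsg.Agent.H408.EngStr

/-!
# Groups with a self-centralising subgroup of prime order: the order (helper583, for S4247)
-/

set_option autoImplicit false

namespace Cfsg.Agent.H583.DPi

open Subgroup Cfsg Cfsg.Agent.H361.SelfCent

universe u

variable {Y : Type u} [Group Y] [Finite Y] {r m : ℕ} {x : Y}

/-- the order of the normaliser -/
theorem norm_card (h : Sit Y r m x) : Nat.card (normalizer ((zpowers x : Subgroup Y) : Set Y)) = r * (m % r) := by
  have hrf : Fact r.Prime := ⟨h.prime⟩
  by_cases hm : m = 1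
  · subst hm
    have hc : Nat.card Y = r := by rw [h.card, mul_one]
    have hcyc : IsCyclic Y := isCyclic_of_prime_card (p := r) hc
    have htop : normalizer ((zpowers x : Subgroup Y) : Set Y) = ⊤ := by
      rw [eq_top_iff]
      intro g _
      rw [mem_normalizer_iff]
      intro y
      have h2 : g * y * g⁻¹ = y := by
        have : g * y = y * g := by
          obtain ⟨z, hz⟩ := hcyc.exists_generator
          obtain ⟨a, rfl⟩ := mem_zpowers_iff.1 (hz g)
          obtain ⟨b, rfl⟩ := mem_zpowers_iff.1 (hz y)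
          exact (Commute.refl z).zpow_zpow a b
        rw [this]; group
      rw [h2]
    rw [htop, card_top, hc, Nat.mod_eq_of_lt h.prime.one_lt, mul_one]
  · obtain ⟨e, he1, he2⟩ := h.card_norm hm
    have hsyl := h.card_sylow_mul hm he2
    have h1 : Nat.card (Sylow r Y) ≡ 1 [MOD r] := card_sylow_modEq_one r Y
    have h2 : m ≡ e [MOD r] := by
      rw [← hsyl]
      simpa using h1.mul_right e
    have h3 : e < r := by
      have := Nat.le_of_dvd (Nat.sub_pos_of_lt h.prime.one_lt) he1
      have := h.prime.one_lt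
      omega
    have h4 : m % r = e := by
      rw [← Nat.mod_eq_of_lt h3]
      exact h2
    rw [he2, h4]

/-- subgroups -/
theorem sub (h : Sit Y r m x) (hm : m ≠ 1) (H : Subgroup Y) (hr : r ∣ Nat.card H) :
    ∃ (m' : ℕ) (x' : H), Sit H r m' x' ∧ Nat.card H = r * m' ∧ m' % r ∣ m % r := by
  have hrf : Fact r.Prime := ⟨h.prime⟩
  obtain ⟨x', hx'⟩ := exists_prime_orderOf_dvd_card' r hr
  have hx'' : orderOf (x' : Y) = r := by rw [Subgroup.orderOf_coe, hx']
  have hS := h.cent_of_orderOf hm hx''
  obtain ⟨m', hm'⟩ := hr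
  have hrm' : ¬ r ∣ m' := by
    rintro ⟨c, hc⟩
    apply h.ndvd
    have h1 : r * m' ∣ r * m := by
      rw [← hm', ← h.card]
      exact Subgroup.card_subgroup_dvd_card _
    exact (Dvd.intro _ hc.symm).trans (Nat.dvd_of_mul_dvd_mul_left h.prime.pos h1)
  have hC' : Nat.card (centralizer ({x'} : Set H)) = r := by
    have h1 : centralizer ({x'} : Set H) = zpowers x' := by
      apply le_antisymm
      · intro w hw
        rw [mem_centralizer_singleton_iff] at hw
        have h2 : (w : Y) ∈ centralizer ({(x' : Y)} : Set Y) :=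
          mem_centralizer_singleton_iff.2 (congrArg Subtype.val hw)
        rw [hS.cent_eq hm] at h2
        obtain ⟨j, hj⟩ := mem_zpowers_iff.1 h2
        exact mem_zpowers_iff.2 ⟨j, Subtype.ext hj⟩
      · rw [zpowers_le]
        exact Sit.mem_self x'
    rw [h1, Nat.card_zpowers, hx']
  have hSit' : Sit H r m' x' := ⟨h.prime, hm', hrm', hC'⟩
  refine ⟨m', x', hSit', hm', ?_⟩
  have h1 := norm_card hSit'
  have h2 := norm_card hS
  have h3 : (normalizer ((zpowers x' : Subgroup H) : Set H)).map H.subtype ≤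
      normalizer ((zpowers (x' : Y) : Subgroup Y) : Set Y) := by
    rintro _ ⟨g, hg, rfl⟩
    have h5 : (zpowers x').map H.subtype = zpowers (x' : Y) := by
      rw [MonoidHom.map_zpowers]; rfl
    rw [← h5]
    have hg1 : g * x' * g⁻¹ ∈ zpowers x' := (mem_normalizer_iff.1 hg x').1 (mem_zpowers x')
    rw [SetLike.mem_coe, mem_normalizer_iff] at hg
    rw [mem_normalizer_iff]
    intro w
    constructor
    · rintro ⟨w, hw, rfl⟩
      exact ⟨g * w * g⁻¹, (hg w).1 hw, rfl⟩
    · rintro ⟨w', hw', hw''⟩
      have hwH : w ∈ H := by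
        have h12 : (g : Y) * w * (g : Y)⁻¹ ∈ H := by
          have : H.subtype w' ∈ H := w'.2
          rwa [hw''] at this
        have h13 := H.mul_mem (H.mul_mem (H.inv_mem g.2) h12) g.2
        simpa [mul_assoc] using h13
      refine ⟨⟨w, hwH⟩, (hg _).2 ?_, rfl⟩
      have : g * (⟨w, hwH⟩ : H) * g⁻¹ = w' := Subtype.ext hw''.symm
      rw [this]
      exact hw'
  have h4 := Subgroup.card_dvd_of_le h3
  rw [card_map_of_injective H.subtype_injective, h1, h2] at h4
  exact Nat.dvd_of_mul_dvd_mul_left h.prime.pos h4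

/-- Frattini, exact form -/
theorem index_mul (h : Sit Y r m x) (hm : m ≠ 1) (M : Subgroup Y) [hM : M.Normal] {m' : ℕ} (hr : Nat.card M = r * m') :
    M.index * (m' % r) = m % r := by
  have hrf : Fact r.Prime := ⟨h.prime⟩
  have hrM : r ∣ Nat.card M := by rw [hr]; exact dvd_mul_right _ _
  obtain ⟨x', hx'⟩ := exists_prime_orderOf_dvd_card' r hrM
  have hx'' : orderOf (x' : Y) = r := by rw [Subgroup.orderOf_coe, hx']
  have hS := h.cent_of_orderOf hm hx''
  have hrm' : ¬ r ∣ m' := by
    rintro ⟨c, hc⟩
    apply h.ndvd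
    have h1 : r * m' ∣ r * m := by
      rw [← hr, ← h.card]
      exact Subgroup.card_subgroup_dvd_card _
    exact (Dvd.intro _ hc.symm).trans (Nat.dvd_of_mul_dvd_mul_left h.prime.pos h1)
  have hC' : Nat.card (centralizer ({x'} : Set M)) = r := by
    have h1 : centralizer ({x'} : Set M) = zpowers x' := by
      apply le_antisymm
      · intro w hw
        rw [mem_centralizer_singleton_iff] at hw
        have h2 : (w : Y) ∈ centralizer ({(x' : Y)} : Set Y) :=
          mem_centralizer_singleton_iff.2 (congrArg Subtype.val hw)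
        rw [hS.cent_eq hm] at h2
        obtain ⟨j, hj⟩ := mem_zpowers_iff.1 h2
        exact mem_zpowers_iff.2 ⟨j, Subtype.ext hj⟩
      · rw [zpowers_le]
        exact Sit.mem_self x'
    rw [h1, Nat.card_zpowers, hx']
  have hSit' : Sit M r m' x' := ⟨h.prime, hr, hrm', hC'⟩
  have h1 := norm_card hSit'
  have h2 := norm_card hS
  set N := normalizer ((zpowers (x' : Y) : Subgroup Y) : Set Y) with hN
  -- the Sylow subgroup of `M`
  have hPx : IsPGroup r (zpowers x') := IsPGroup.of_card (n := 1) (by rw [Nat.card_zpowers, hx', pow_one])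
  obtain ⟨R, hR⟩ := hPx.exists_le_sylow
  have hPe : zpowers x' = R := by
    apply Subgroup.eq_of_le_of_card_ge hR
    rw [hSit'.card_sylow R, Nat.card_zpowers, hx']
  have hfr := Sylow.normalizer_sup_eq_top R
  have h5 : (zpowers x').map M.subtype = zpowers (x' : Y) := by
    rw [MonoidHom.map_zpowers]; rfl
  have h6 : ((R : Subgroup M).map M.subtype : Subgroup Y) = zpowers (x' : Y) := by rw [← hPe, h5]
  rw [h6, ← hN] at hfr
  have h7 : M.relIndex N = M.index := by
    have h3 : M.relIndex (N ⊔ M) = M.relIndex N := Subgroup.relIndex_sup_right _ _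
    rw [hfr, relIndex_top_right] at h3
    exact h3.symm
  have h8 : Nat.card (normalizer ((zpowers x' : Subgroup M) : Set M)) = Nat.card (M ⊓ N : Subgroup Y) := by
    have h9 : normalizer ((zpowers x' : Subgroup M) : Set M) = N.subgroupOf M := by
      have hmem : ∀ w : M, w ∈ zpowers x' ↔ (w : Y) ∈ zpowers (x' : Y) := by
        intro w
        rw [mem_zpowers_iff, mem_zpowers_iff]
        constructor
        · rintro ⟨j, hj⟩
          exact ⟨j, congrArg Subtype.val hj⟩
        · rintro ⟨j, hj⟩
          exact ⟨j, Subtype.ext hj⟩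
      have hxM : zpowers (x' : Y) ≤ M := by rw [zpowers_le]; exact x'.2
      ext w
      rw [mem_subgroupOf, hN, mem_normalizer_iff, mem_normalizer_iff]
      constructor
      · intro h y
        constructor
        · intro hy
          exact (hmem _).1 ((h ⟨y, hxM hy⟩).1 ((hmem _).2 hy))
        · intro hy
          have hyH' : y ∈ M := by
            have h3 := mul_mem (mul_mem (inv_mem w.2) (hxM hy)) w.2
            rwa [show (w : Y)⁻¹ * ((w : Y) * y * (w : Y)⁻¹) * w = y by group] at h3
          exact (hmem _).1 ((h ⟨y, hyH'⟩).2 ((hmem _).2 hy))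
      · intro h y
        rw [hmem, hmem]
        exact h y
    rw [h9, ← Subgroup.inf_subgroupOf_right, inf_comm]
    exact Nat.card_congr (Subgroup.subgroupOfEquivOfLe inf_le_left).toEquiv
  have h9 : Nat.card (M ⊓ N : Subgroup Y) * M.relIndex N = Nat.card N := by
    have := relIndex_mul_relIndex ⊥ (M ⊓ N) N bot_le inf_le_right
    rw [relIndex_bot_left, inf_relIndex_right, relIndex_bot_left] at this
    exact this
  rw [← h8, h1, h7, h2] at h9
  apply Nat.eq_of_mul_eq_mul_left h.prime.pos
  rw [← h9]; ring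

/-- **The structure**: `|Y| = N o d`. -/
theorem str (h : Sit Y r m x) : ∃ N o d : ℕ, Nat.card Y = N * o * d ∧ ¬ r ∣ N ∧
    (∀ s : ℕ, s.Prime → s ^ (N.factorization s) % r = 1) ∧
    (o = r ∨ ∃ (X : Type u) (_ : Group X) (_ : Finite X) (_ : IsSimpleGroup X), (¬ ∀ a b : X, a * b = b * a) ∧
      Nat.card X = o) ∧ r ∣ o ∧ d * ((o / r) % r) = m % r := by
  classical
  have hrp := h.prime
  have hrf : Fact r.Prime := ⟨h.prime⟩
  by_cases hm : m = 1
  · subst hm
    refine ⟨1, r, 1, by rw [h.card]; ring, by simpa using hrp.one_lt.ne', ?_, Or.inl rfl, dvd_refl _, ?_⟩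
    · intro s _
      simp [Nat.mod_eq_of_lt hrp.one_lt]
    · rw [Nat.div_self hrp.pos]; simp
  -- a maximal normal `r'`-subgroup
  have hfin : Set.Finite {N : Subgroup Y | N.Normal ∧ ¬ r ∣ Nat.card N} := Set.toFinite _
  obtain ⟨N, hN⟩ := hfin.exists_maximal ⟨⊥, (inferInstance : (⊥ : Subgroup Y).Normal), by
    rw [card_bot]; exact fun h => hrp.one_lt.ne' (Nat.dvd_one.1 h)⟩
  obtain ⟨⟨hNn, hNr⟩, hNmax⟩ := hN
  have hnt : Nontrivial (Y ⧸ N) := by
    rw [QuotientGroup.nontrivial_iff]
    rintro rfl
    apply hNr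
    rw [card_top, h.card]
    exact dvd_mul_right _ _
  obtain ⟨L, hL, hL1, hmin⟩ := Cfsg.Agent.Lib.SubnormalJoin.exists_minimal_normal (Y ⧸ N)
  set M : Subgroup Y := L.comap (QuotientGroup.mk' N) with hM
  have hMn : M.Normal := hL.comap _
  have hNM : N ≤ M := by
    intro y hy
    rw [hM, mem_comap]
    have : (QuotientGroup.mk' N) y = 1 := (QuotientGroup.eq_one_iff y).2 hy
    rw [this]; exact one_mem _
  have hMi : M.index = L.index := index_comap_of_surjective _ (QuotientGroup.mk'_surjective N)
  have hMc : Nat.card M = Nat.card N * Nat.card L := by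
    have h1 := M.card_mul_index
    have h2 := L.card_mul_index
    have h3 := N.card_mul_index
    have h4 : Nat.card (Y ⧸ N) = N.index := rfl
    have hi : 0 < M.index := Nat.pos_of_ne_zero (Subgroup.FiniteIndex.index_ne_zero (H := M))
    apply Nat.eq_of_mul_eq_mul_right hi
    rw [h1, ← h3, ← h4, ← h2, hMi]; ring
  have hrL : r ∣ Nat.card L := by
    by_contra hno
    have h1 : ¬ r ∣ Nat.card M := by
      rw [hMc]
      intro h
      rcases (Nat.Prime.dvd_mul hrp).1 h with h | h
      · exact hNr h
      · exact hno h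
    have h2 := hNmax ⟨hMn, h1⟩ hNM
    have h3 : M = N := le_antisymm h2 hNM
    apply hL1
    rw [eq_bot_iff]
    intro y hy
    obtain ⟨z, rfl⟩ := QuotientGroup.mk'_surjective N y
    have h4 : z ∈ M := hy
    rw [h3] at h4
    exact (QuotientGroup.eq_one_iff z).2 h4
  -- `L` is simple
  obtain ⟨T, j, hTN, hT, hj, ⟨e⟩⟩ := Cfsg.Agent.Lib.MinNormal.exists_mulEquiv_pi L hL1 hmin
  have hc : Nat.card L = Nat.card T ^ j := by
    rw [Nat.card_congr e.toEquiv, Nat.card_pi]
    simp
  have hrT : r ∣ Nat.card T := by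
    rw [hc] at hrL
    exact hrp.dvd_of_dvd_pow hrL
  have hMY : Nat.card M ∣ r * m := by
    rw [← h.card]
    exact Subgroup.card_subgroup_dvd_card M
  have hj1 : j = 1 := by
    by_contra hj2
    have h2 : r ^ j ∣ Nat.card L := by
      rw [hc]
      exact pow_dvd_pow_of_dvd hrT j
    have h1 : r ^ 2 ∣ r * m := ((pow_dvd_pow r (by omega)).trans h2).trans
      ((by rw [hMc]; exact dvd_mul_left _ _ : Nat.card L ∣ Nat.card M).trans hMY)
    rw [pow_two] at h1
    exact h.ndvd (Nat.dvd_of_mul_dvd_mul_left hrp.pos h1)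
  subst hj1
  rw [pow_one] at hc
  have ho : Nat.card T = r ∨ ∃ (X : Type u) (_ : Group X) (_ : Finite X) (_ : IsSimpleGroup X),
      (¬ ∀ a b : X, a * b = b * a) ∧ Nat.card X = Nat.card T := by
    by_cases hab : ∀ a b : T, a * b = b * a
    · left
      have hcp : (Nat.card T).Prime := by
        let _ : CommGroup T := { (inferInstance : Group T) with mul_comm := hab }
        exact IsSimpleGroup.prime_card
      exact ((Nat.prime_dvd_prime_iff_eq hrp hcp).1 hrT).symm
    · right
      exact ⟨T, inferInstance, inferInstance, hT, hab, rfl⟩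
  -- the Sylow orders of `N`
  have hmod : ∀ s : ℕ, s.Prime → s ^ ((Nat.card N).factorization s) % r = 1 := by
    intro s hs
    have hsf : Fact s.Prime := ⟨hs⟩
    obtain ⟨P⟩ : Nonempty (Sylow s N) := inferInstance
    have h1 := h.modEq hm N hNr hs P
    rw [P.card_eq_multiplicity] at h1
    have h3 : s ^ (Nat.card N).factorization s % r = 1 % r := h1
    rw [h3]
    exact Nat.mod_eq_of_lt hrp.one_lt
  have hNmod : Nat.card N % r = 1 := by
    have h1 : (Nat.card N).factorization.prod (fun p k => p ^ k) = Nat.card N :=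
      Nat.prod_factorization_pow_eq_self Nat.card_pos.ne'
    have h2 : ((Nat.card N).factorization.prod (fun p k => p ^ k)) ≡ 1 [MOD r] := by
      unfold Finsupp.prod
      have : ∀ A : Finset ℕ, (∀ s ∈ A, s.Prime) → (∏ s ∈ A, s ^ ((Nat.card N).factorization s)) ≡ 1 [MOD r] := by
        intro A
        induction A using Finset.induction_on with
        | empty => intro _; simp only [Finset.prod_empty]; rfl
        | insert s A hsA ih =>
          intro hA
          rw [Finset.prod_insert hsA]
          have h3 : s ^ ((Nat.card N).factorization s) ≡ 1 [MOD r] := by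
            show _ % r = 1 % r
            rw [hmod s (hA s (Finset.mem_insert_self _ _)), Nat.mod_eq_of_lt hrp.one_lt]
          exact h3.mul (ih fun t ht => hA t (Finset.mem_insert_of_mem ht))
      exact this _ fun s hs => Nat.prime_of_mem_primeFactors (by simpa using hs)
    rw [h1] at h2
    rw [h2, Nat.mod_eq_of_lt hrp.one_lt]
  obtain ⟨q, hq⟩ := hrT
  have hMr : Nat.card M = r * (Nat.card N * q) := by rw [hMc, hc, hq]; ring
  have h5 := index_mul h hm M hMr
  have h6 : Nat.card N * q % r = q % r := by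
    have h7 : Nat.card N * q ≡ 1 * q [MOD r] := by
      apply Nat.ModEq.mul_right
      show _ % r = 1 % r
      rw [hNmod, Nat.mod_eq_of_lt hrp.one_lt]
    rw [one_mul] at h7
    exact h7
  rw [h6] at h5
  refine ⟨Nat.card N, Nat.card T, M.index, ?_, hNr, hmod, ho, by rw [hq]; exact dvd_mul_right _ _, ?_⟩
  · rw [← hc, ← hMc, M.card_mul_index]
  · rw [hq, Nat.mul_div_cancel_left _ hrp.pos]
    exact h5

end Cfsg.Agent.H583.DPi
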