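import Cfsg.Agent.H583.DPi.Fact
import Cfsg.Agent.H583.DPi.Str
import Cfsg.Agent.H583.DPi.Num
import Cfsg.Agent.H583.DPi.Pair

/-!
# S4247, sporadic rows: the engine (helper583)
-/

set_option autoImplicit false

namespace Cfsg.Agent.H583.DPi

open Subgroup Cfsg Cfsg.Agent.H988.CPi Cfsg.Agent.H571.RV Cfsg.Agent.H817.DPi Cfsg.Agent.OrdDiv
  Cfsg.Agent.H361.SelfCent Cfsg.Agent.H553.OddHall
open scoped Pointwise

universe u

/-- no element of order `t` centralises a subgroup of order `s ^ a` -/
def NF (S : Type u) [Group S] (s a t : ℕ) : Prop :=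
  ∀ Q : Subgroup S, Nat.card Q = s ^ a → ∀ y : S, orderOf y = t → ¬ ∀ x ∈ Q, x * y = y * x

/-- a prime `r` with a self-centralising element -/
structure Iso (S : Type u) [Group S] (n r : ℕ) : Prop where
  prime : r.Prime
  ne_two : r ≠ 2
  dvd : r ∣ n
  sq : ¬ r ^ 2 ∣ n
  cent : ∃ x : S, Nat.card (centralizer ({x} : Set S)) = r

/-- the orders of the nonabelian simple groups dividing `n` -/
def Ords.{v} (n : ℕ) (L : List ℕ) : Prop :=
  ∀ (X : Type v) [Group X] [Finite X] [IsSimpleGroup X], (¬ ∀ a b : X, a * b = b * a) → Nat.card X ∣ n → Nat.card X ∈ L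

section

variable {S : Type u} [Group S] [Finite S]

theorem Iso.sit {n r : ℕ} (h : Iso S n r) (hn : Nat.card S = n) : ∃ x : S, Sit S r (n / r) x := by
  obtain ⟨x, hx⟩ := h.cent
  obtain ⟨m, hm⟩ := h.dvd
  refine ⟨x, h.prime, ?_, ?_, hx⟩
  · rw [hn, hm, Nat.mul_div_cancel_left _ h.prime.pos]
  · intro hd
    apply h.sq
    rw [hm, Nat.mul_div_cancel_left _ h.prime.pos] at hd
    obtain ⟨c, rfl⟩ := hd
    exact ⟨c, by rw [hm]; ring⟩

theorem prod_filter {f : ℕ → ℕ} (q : ℕ × ℕ → Bool) : ∀ l : List (ℕ × ℕ), (∀ x ∈ l, f x.1 = if q x = true then x.2 else 0) →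
    ((l.map Prod.fst).map fun p => p ^ f p).prod = prodl (l.filter q)
  | [], _ => by simp [prodl]
  | x :: l, h => by
    have ih := prod_filter q l fun y hy => h y (List.mem_cons_of_mem _ hy)
    have h1 := h x List.mem_cons_self
    rw [List.map_cons, List.map_cons, List.prod_cons, ih, h1, List.filter_cons]
    by_cases hq : q x = true
    · rw [if_pos hq, if_pos hq]; simp [prodl]
    · rw [if_neg hq, if_neg hq]; simp

theorem valid_dvd {l : List (ℕ × ℕ)} {n : ℕ} (hv : valid l n = true) {x : ℕ × ℕ} (hx : x ∈ l) : x.1 ^ x.2 ∣ n := by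
  rw [← valid_prod hv]
  unfold prodl
  exact List.dvd_prod (List.mem_map.2 ⟨x, hx, rfl⟩)

/-- the orders of subgroups of order divisible by an isolated prime -/
theorem card_mem_hs {n : ℕ} {l : List (ℕ × ℕ)} {L : List ℕ} {r : ℕ} (hv : valid l n = true)
    (hnd : (l.map Prod.fst).Nodup) (hn : Nat.card S = n) (hr : Iso S n r) (hL : Ords.{u} n L) (H : Subgroup S)
    (hH : r ∣ Nat.card H) (hlt : Nat.card H < n) : Nat.card H ∈ hs n l L r := by
  obtain ⟨x, hS⟩ := hr.sit hn
  have hn0 : 0 < n := valid_pos hv
  have hm : n / r ≠ 1 := by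
    intro h1
    have h2 : n = r := by
      obtain ⟨m, hm⟩ := hr.dvd
      rw [hm, Nat.mul_div_cancel_left _ hr.prime.pos] at h1
      rw [hm, h1, mul_one]
    have h3 := Nat.le_of_dvd Nat.card_pos hH
    omega
  obtain ⟨m', x', hS', hc, he⟩ := sub hS hm H hH
  obtain ⟨N, o, d, h1, h2, h3, h4, h5, h6⟩ := str hS'
  have hHn : Nat.card H ∣ n := by rw [← hn]; exact card_subgroup_dvd_card H
  have ho : o ∣ Nat.card H := by rw [h1]; exact Dvd.intro _ (by ring : o * (N * d) = N * o * d)
  have hon : o ≠ n := by
    intro h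
    have := Nat.le_of_dvd Nat.card_pos ho
    omega
  refine mem_hs hv hnd hr.prime hr.sq h1 hHn h3 ?_ h5 hr.dvd ?_
  · rcases h4 with h4 | ⟨X, _, _, _, hna, hX⟩
    · exact Or.inl h4
    · right
      refine ⟨?_, hon⟩
      rw [← hX]
      exact hL X hna (by rw [hX]; exact ho.trans hHn)
  · rw [h6]; exact he

end

section

variable {π : Set ℕ} {S : Type u} [Group S] [Finite S] {P : Subgroup S} {K B : Subgroup (MulAut S)}

omit [Finite S] in
theorem card_ne_one (C : Cfg π P K B) : Nat.card P ≠ 1 := by
  intro h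
  apply C.nnil
  have := (Nat.card_eq_one_iff_unique.1 h).1
  infer_instance

/-- the order of `K` -/
theorem card_K_dvd (hinj : Function.Injective (MulAut.conj : S →* MulAut S)) {c : ℕ} (hout : (inn S).index ∣ c)
    (K : Subgroup (MulAut S)) : Nat.card K ∣ Nat.card (ip K) * c := by
  have h4 : Nat.card (K ⊓ inn S : Subgroup (MulAut S)) * (inn S).relIndex K = Nat.card K := by
    have := relIndex_mul_relIndex ⊥ (K ⊓ inn S) K bot_le inf_le_left
    rw [relIndex_bot_left, inf_relIndex_left, relIndex_bot_left] at this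
    exact this
  rw [← h4, card_ip hinj]
  apply Nat.mul_dvd_mul_left
  exact (relIndex_dvd_index_of_normal (inn S) K).trans hout

/-- **the engine** -/
theorem engine [IsSimpleGroup S] (hna : ¬ IsMulCommutative S) {n : ℕ} {l : List (ℕ × ℕ)} (hv : valid l n = true)
    (hnd : (l.map Prod.fst).Nodup) (hl1 : ∀ x ∈ l, x.2 ≠ 0) (hn : Nat.card S = n) {c j : ℕ} (hc : c = 1 ∨ c = 2)
    (hout : (inn S).index ∣ c)
    (hj : ∀ b : S, (orderOf b).Prime → orderOf b ≠ 2 → ¬ 2 ^ j ∣ Nat.card (centralizer ({b} : Set S)))
    {L : List ℕ} (hL : Ords.{u} n L) {HL : List (ℕ × List ℕ)}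
    (hHL : ∀ p ∈ HL, Iso S n p.1 ∧ ∀ h ∈ hs n l L p.1, h ∈ p.2) {nf : List (ℕ × ℕ)}
    (hnf : ∀ st ∈ nf, st.1.Prime ∧ st.2.Prime ∧ st.1 ≠ st.2 ∧ ∀ a, (st.1, a) ∈ l → NF S st.1 a st.2)
    {E : List (List ℕ × ℕ × ℕ)} (hA : chkA n l c j HL nf E = true) (hB : chkB n l c j HL nf E = true)
    (C : Cfg π P K B) : ∃ (q : ℕ × ℕ → Bool) (k h : ℕ), (∀ x, q x = true ↔ x.1 ∈ π) ∧
      ((l.filter q).map Prod.fst, h, k) ∈ E ∧ Nat.card (ip B) = h ∧ Nat.card P = prodl (l.filter q) ∧
      Nat.card P * k * h = n := by
  classical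
  have hinj := conj_inj hna
  have hcard := card_eq C hinj
  rw [hn] at hcard
  set k := B.relIndex K with hk
  set h := Nat.card (ip B) with hh
  have hn0 : 0 < n := valid_pos hv
  have hP1 := card_ne_one C
  have hc0 : c ≠ 0 := by rcases hc with rfl | rfl <;> norm_num
  -- divisibility
  have hhB : h ∣ Nat.card B := card_ip_dvd hinj B
  have hkK : k ∣ Nat.card K := relIndex_dvd_card B K
  have hπh : PiN' π h := C.piB.of_dvd hhB
  have hπk : PiN' π k := C.piK.of_dvd hkK
  have hPπ : PiN π (Nat.card P) := C.hall.1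
  have hkc : k ∣ Nat.card (ip K) * c := hkK.trans (card_K_dvd hinj hout K)
  have hcent := ip_le_centralizer C
  -- an element of odd prime order in `P`
  obtain ⟨p₀, hp₀, hp₀P⟩ := Nat.exists_prime_and_dvd hP1
  have hp₀2 : p₀ ≠ 2 := by
    rintro rfl
    exact C.two (hPπ 2 hp₀ hp₀P)
  have hp₀f : Fact p₀.Prime := ⟨hp₀⟩
  obtain ⟨b₀, hb₀⟩ := exists_prime_orderOf_dvd_card' p₀ hp₀P
  have hipK : ∀ t : ℕ, t.Prime → t ∣ Nat.card (ip K) → ∃ y : S, orderOf y = t ∧ ∀ x ∈ P, x * y = y * x := by
    intro t ht htK
    have htf : Fact t.Prime := ⟨ht⟩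
    obtain ⟨y, hy⟩ := exists_prime_orderOf_dvd_card' t htK
    exact ⟨y, by rw [Subgroup.orderOf_coe, hy], fun x hx => mem_centralizer_iff.1 (hcent y.2) x hx⟩
  have hjK : ¬ 2 ^ j ∣ Nat.card (ip K) := by
    intro hd
    apply hj (b₀ : S) (by rw [Subgroup.orderOf_coe, hb₀]; exact hp₀) (by rw [Subgroup.orderOf_coe, hb₀]; exact hp₀2)
    refine hd.trans (Subgroup.card_dvd_of_le ?_)
    intro y hy
    rw [mem_centralizer_singleton_iff]
    exact (mem_centralizer_iff.1 (hcent hy) (b₀ : S) b₀.2).symm
  let q : ℕ × ℕ → Bool := fun x => decide (x.1 ∈ π)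
  have hq : ∀ x, q x = true ↔ x.1 ∈ π := fun x => by simp [q]
  -- the primes of `π` in the list
  have hmemT : ∀ s : ℕ, s.Prime → s ∈ π → s ∣ n → ∃ a, (s, a) ∈ l.filter q := by
    intro s hs hsπ hsn
    obtain ⟨w, hw, -⟩ := exists_pair hv hs (j := 1) le_rfl (by rw [pow_one]; exact hsn)
    exact ⟨w, List.mem_filter.2 ⟨hw, (hq _).2 hsπ⟩⟩
  have hTl : ∀ x ∈ l.filter q, x ∈ l ∧ x.1.Prime ∧ x.1 ∈ π ∧ x.1 ≠ 2 := by
    intro x hx
    obtain ⟨h1, h2⟩ := List.mem_filter.1 hx
    have h3 := (hq _).1 h2
    exact ⟨h1, valid_prime hv _ h1, h3, fun h => C.two (h ▸ h3)⟩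
  -- the order of `P`
  have hPn : Nat.card P ∣ n := by rw [← hn]; exact card_subgroup_dvd_card P
  have hPc : Nat.card P = prodl (l.filter q) := by
    have h1 := eq_prod hnd (m := Nat.card P) Nat.card_pos.ne' ?_
    · rw [h1]
      apply prod_filter
      intro x hx
      have hxp := valid_prime hv _ hx
      by_cases hxq : q x = true
      · rw [if_pos hxq]
        have hxπ := (hq x).1 hxq
        have h2 : n.factorization x.1 = x.2 := by
          apply le_antisymm
          · by_contra hlt
            exact valid_exact hv _ hx ((pow_dvd_pow x.1 (by omega)).trans (Nat.ordProj_dvd n x.1))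
          · exact (hxp.pow_dvd_iff_le_factorization hn0.ne').1 (valid_dvd hv hx)
        rw [← h2, hcard, mul_assoc, Nat.factorization_mul Nat.card_pos.ne' (by
          intro h0
          rw [mul_assoc, h0, mul_zero] at hcard
          omega), Finsupp.add_apply, Nat.factorization_eq_zero_of_not_dvd (n := k * h), add_zero]
        exact (hπk.mul hπh) x.1 hxp hxπ
      · rw [if_neg hxq]
        apply Nat.factorization_eq_zero_of_not_dvd
        intro hd
        exact hxq ((hq x).2 (hPπ x.1 hxp hd))
    · intro p hp hpP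
      obtain ⟨w, hw, -⟩ := exists_pair hv hp (j := 1) le_rfl (by rw [pow_one]; exact hpP.trans hPn)
      exact List.mem_map.2 ⟨_, hw, rfl⟩
  -- the pairs
  have hpair : ∀ x ∈ l.filter q, ∀ y ∈ l.filter q, x.1 ≠ y.1 → link x y = false → PairN y.1 x.1 S := by
    intro x hx y hy hxy hlk
    obtain ⟨hxl, hxp, -, -⟩ := hTl x hx
    obtain ⟨hyl, hyp, -, -⟩ := hTl y hy
    refine pairN_of_num (a := x.2) hxp hyp hxy (by rw [hn]; exact valid_exact hv _ hxl) ?_
    intro i hi1 hi2 hi3
    unfold link at hlk
    rw [List.any_eq_false] at hlk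
    apply hlk (i - 1) (List.mem_range.2 (by omega))
    rw [show i - 1 + 1 = i by omega, hi3]
    rfl
  have hfst : ∀ x ∈ l, ∀ y ∈ l, x.1 = y.1 → x = y := by
    intro x hx y hy hxy
    have h1 : x.2 = y.2 := by
      have e1 : ∀ z ∈ l, n.factorization z.1 = z.2 := by
        intro z hz
        have hzp := valid_prime hv _ hz
        apply le_antisymm
        · by_contra hlt
          exact valid_exact hv _ hz ((pow_dvd_pow z.1 (by omega)).trans (Nat.ordProj_dvd n z.1))
        · exact (hzp.pow_dvd_iff_le_factorization hn0.ne').1 (valid_dvd hv hz)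
      rw [← e1 x hx, ← e1 y hy, hxy]
    exact Prod.ext hxy h1
  have hnn : nn (l.filter q) = true := by
    by_contra hno
    apply C.nnil
    refine nilpotent_of_pairs C.two C.hall ?_
    intro s t hs ht hst hsπ htπ hsG htG
    rw [hn] at hsG htG
    obtain ⟨a, ha⟩ := hmemT s hs hsπ hsG
    obtain ⟨b, hb⟩ := hmemT t ht htπ htG
    apply hpair (s, a) ha (t, b) hb hst
    by_contra hlk
    apply hno
    unfold nn
    rw [List.any_eq_true]
    refine ⟨_, ha, ?_⟩
    rw [List.any_eq_true]
    refine ⟨_, hb, ?_⟩
    rw [Bool.and_eq_true]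
    exact ⟨by simpa using hst, by simpa using hlk⟩
  have hsylP : ∀ x ∈ l.filter q, ∃ Q : Subgroup S, Q ≤ P ∧ Nat.card Q = x.1 ^ x.2 := by
    intro x hx
    obtain ⟨hxl, hxp, hxπ, -⟩ := hTl x hx
    have hxf : Fact x.1.Prime := ⟨hxp⟩
    obtain ⟨Q⟩ : Nonempty (Sylow x.1 P) := inferInstance
    refine ⟨(Q : Subgroup P).map P.subtype, map_subtype_le _, ?_⟩
    rw [card_map_of_injective P.subtype_injective, Q.card_eq_multiplicity]
    congr 1
    have h2 : n.factorization x.1 = x.2 := by
      apply le_antisymm
      · by_contra hlt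
        exact valid_exact hv _ hxl ((pow_dvd_pow x.1 (by omega)).trans (Nat.ordProj_dvd n x.1))
      · exact (hxp.pow_dvd_iff_le_factorization hn0.ne').1 (valid_dvd hv hxl)
    rw [← h2, hcard, mul_assoc, Nat.factorization_mul Nat.card_pos.ne' (by
      intro h0
      rw [mul_assoc, h0, mul_zero] at hcard
      omega), Finsupp.add_apply, Nat.factorization_eq_zero_of_not_dvd (n := k * h), add_zero]
    exact (hπk.mul hπh) x.1 hxp hxπ
  have htst : tst n c j HL nf (l.filter q) k h = true := by
    unfold tst
    simp only [Bool.and_eq_true, beq_iff_eq]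
    refine ⟨⟨⟨⟨⟨?_, ?_⟩, ?_⟩, hnn⟩, ?_⟩, ?_⟩
    · rw [← hPc]; exact hcard.symm
    · rw [List.all_eq_true]
      intro x hx
      obtain ⟨hxl, hxp, hxπ, -⟩ := hTl x hx
      simp only [Bool.and_eq_true, bne_iff_ne]
      exact ⟨fun h0 => hπk x.1 hxp hxπ (Nat.dvd_of_mod_eq_zero h0), fun h0 => hπh x.1 hxp hxπ (Nat.dvd_of_mod_eq_zero h0)⟩
    · rw [bne_iff_ne]
      intro h0
      apply hjK
      have h1 : 2 ^ j * c ∣ Nat.card (ip K) * c := (Nat.dvd_of_mod_eq_zero h0).trans hkc
      exact Nat.dvd_of_mul_dvd_mul_right (Nat.pos_of_ne_zero hc0) h1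
    · unfold nfOK
      rw [List.all_eq_true]
      intro st hst
      rw [List.all_eq_true]
      intro x hx
      obtain ⟨hxl, hxp, hxπ, hx2⟩ := hTl x hx
      obtain ⟨hs, ht, hstne, hNF⟩ := hnf st hst
      by_cases hxs : x.1 = st.1
      swap
      · simp [hxs]
      have hNFx : NF S st.1 x.2 st.2 := hNF x.2 (by rw [← hxs]; exact hxl)
      rw [Bool.or_eq_true, Bool.and_eq_true]
      right
      refine ⟨?_, ?_⟩
      · rw [List.all_eq_true]
        intro y hy
        obtain ⟨hyl, hyp, hyπ, hy2⟩ := hTl y hy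
        by_cases hyt : y.1 = st.2
        swap
        · simp [hyt]
        by_contra hno
        simp only [Bool.or_eq_true, not_or, Bool.not_eq_true] at hno
        obtain ⟨⟨-, h1⟩, h2⟩ := hno
        have hxy : x.1 ≠ y.1 := by rw [hxs, hyt]; exact hstne
        have hp1 := hpair x hx y hy hxy h1
        have hp2 := hpair y hy x hx hxy.symm h2
        obtain ⟨Q, hQ, z, hz, hQz⟩ := exists_cent (a := x.2) C.two C.hall hxp hyp hxy hxπ hyπ
          (by rw [hn]; exact valid_dvd hv hxl) (by rw [hn]; exact valid_exact hv _ hxl)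
          (by
            rw [hn]
            exact (dvd_pow_self y.1 (hl1 y hyl)).trans (valid_dvd hv hyl)) hp1 hp2
        rw [hxs] at hQ
        rw [hyt] at hz
        exact hNFx Q hQ z hz hQz
      · by_cases htT : ((l.filter q).any fun y => y.1 == st.2) = true
        · rw [htT, Bool.true_or]
        rw [Bool.or_eq_true]
        right
        rw [bne_iff_ne]
        intro h0
        have h1 := (Nat.dvd_of_mod_eq_zero h0).trans hkc
        have h2 : st.2 ∣ Nat.card (ip K) := by
          by_cases hct : c % st.2 = 0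
          · rw [if_pos (by simpa using hct)] at h1
            have h3 : st.2 ∣ c := Nat.dvd_of_mod_eq_zero hct
            have h4 : c = st.2 := by
              rcases hc with rfl | rfl
              · exact absurd (Nat.dvd_one.1 h3) ht.one_lt.ne'
              · exact ((Nat.prime_dvd_prime_iff_eq ht Nat.prime_two).1 h3).symm
            rw [h4] at h1
            exact Nat.dvd_of_mul_dvd_mul_right ht.pos h1
          · rw [if_neg (by simpa using hct)] at h1
            rcases ht.dvd_mul.1 h1 with h3 | h3
            · exact h3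
            · exact absurd (Nat.mod_eq_zero_of_dvd h3) hct
        obtain ⟨y, hy, hPy⟩ := hipK st.2 ht h2
        obtain ⟨Q, hQP, hQ⟩ := hsylP x hx
        rw [hxs] at hQ
        exact hNFx Q hQ y hy fun z hz => hPy z (hQP hz)
    · rw [List.all_eq_true]
      intro p hp
      obtain ⟨hIso, hlist⟩ := hHL p hp
      have hrf : Fact p.1.Prime := ⟨hIso.prime⟩
      obtain ⟨x₀, hS⟩ := hIso.sit hn
      have hm : n / p.1 ≠ 1 := by
        intro h1
        have h2 : n = p.1 := by
          obtain ⟨m, hm⟩ := hIso.dvd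
          rw [hm, Nat.mul_div_cancel_left _ hIso.prime.pos] at h1
          rw [hm, h1, mul_one]
        have h3 : Nat.card P = p.1 := by
          have h4 : Nat.card P ∣ p.1 := by rw [← h2]; exact hPn
          rcases (Nat.dvd_prime hIso.prime).1 h4 with h5 | h5
          · exact absurd h5 hP1
          · exact h5
        apply C.nnil
        have : Fact (p.1).Prime := ⟨hIso.prime⟩
        have h5 : IsPGroup p.1 P := IsPGroup.of_card (n := 1) (by rw [h3, pow_one])
        exact h5.isNilpotent
      by_cases hT : ((l.filter q).any fun x => x.1 == p.1) = true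
      · rw [if_pos hT, Bool.and_eq_true, beq_iff_eq, List.all_eq_true]
        rw [List.any_eq_true] at hT
        obtain ⟨w, hw, hwp⟩ := hT
        rw [beq_iff_eq] at hwp
        obtain ⟨hwl, -, hwπ, -⟩ := hTl w hw
        rw [hwp] at hwπ
        -- `r` divides `|P|`
        have hrP : p.1 ∣ Nat.card P := by
          have h1 := hIso.dvd
          rw [hcard, mul_assoc] at h1
          rcases hIso.prime.dvd_mul.1 h1 with h2 | h2
          · exact h2
          · exact absurd h2 ((hπk.mul hπh) p.1 hIso.prime hwπ)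
        obtain ⟨y, hy⟩ := exists_prime_orderOf_dvd_card' p.1 hrP
        have hy' : orderOf (y : S) = p.1 := by rw [Subgroup.orderOf_coe, hy]
        have hSy := hS.cent_of_orderOf hm hy'
        refine ⟨?_, ?_⟩
        · -- `K₀ = 1`
          have h1 : Nat.card (ip K) ∣ p.1 := by
            rw [← hSy.cent]
            apply Subgroup.card_dvd_of_le
            intro z hz
            rw [mem_centralizer_singleton_iff]
            exact (mem_centralizer_iff.1 (hcent hz) (y : S) y.2).symm
          have h2 : Nat.card (ip K) = 1 := by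
            rcases (Nat.dvd_prime hIso.prime).1 h1 with h3 | h3
            · exact h3
            · exfalso
              have h4 := card_ip_dvd hinj K
              rw [h3] at h4
              exact C.piK p.1 hIso.prime hwπ h4
          rw [h2, one_mul] at hkc
          exact Nat.mod_eq_zero_of_dvd hkc
        · intro x hx
          obtain ⟨hxl, hxp, hxπ, hx2⟩ := hTl x hx
          obtain ⟨m', x', hS', hc', he⟩ := sub hS hm P hrP
          obtain ⟨N, o, d, h1, h2, h3, h4, h5, h6⟩ := str hS'
          have ho : o = p.1 := by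
            rcases h4 with h4 | ⟨X, _, _, _, hnaX, hX⟩
            · exact h4
            · exfalso
              have hodd : PiN π (Nat.card X) := hPπ.of_dvd (by
                rw [hX, h1]
                exact Dvd.intro _ (by ring : o * (N * d) = N * o * d))
              have hsol := solvable_of_pi C.two hodd
              exact hnaX fun a b => (IsSimpleGroup.comm_iff_isSolvable.2 hsol) a b
          unfold compat
          rw [Bool.or_eq_true]
          by_cases hxr : x.1 = p.1
          · left; simpa using hxr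
          right
          rw [ho, Nat.div_self hIso.prime.pos, Nat.mod_eq_of_lt hIso.prime.one_lt, mul_one] at h6
          have hP0 : Nat.card P ≠ 0 := Nat.card_pos.ne'
          have hN0 : N ≠ 0 := by rintro rfl; apply hP0; rw [h1]; ring
          have hd0 : d ≠ 0 := by rintro rfl; apply hP0; rw [h1]; ring
          have hxf : (Nat.card P).factorization x.1 = x.2 := by
            have h2 : n.factorization x.1 = x.2 := by
              apply le_antisymm
              · by_contra hlt
                exact valid_exact hv _ hxl ((pow_dvd_pow x.1 (by omega)).trans (Nat.ordProj_dvd n x.1))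
              · exact (hxp.pow_dvd_iff_le_factorization hn0.ne').1 (valid_dvd hv hxl)
            rw [← h2, hcard, mul_assoc, Nat.factorization_mul Nat.card_pos.ne' (by
              intro h0
              rw [mul_assoc, h0, mul_zero] at hcard
              omega), Finsupp.add_apply, Nat.factorization_eq_zero_of_not_dvd (n := k * h), add_zero]
            exact (hπk.mul hπh) x.1 hxp hxπ
          have hsum : N.factorization x.1 + d.factorization x.1 = x.2 := by
            rw [← hxf, h1, ho, Nat.factorization_mul (mul_ne_zero hN0 hIso.prime.ne_zero) hd0,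
              Nat.factorization_mul hN0 hIso.prime.ne_zero, Finsupp.add_apply, Finsupp.add_apply,
              Nat.factorization_eq_zero_of_not_dvd (n := p.1) (fun hd =>
                hxr ((Nat.prime_dvd_prime_iff_eq hxp hIso.prime).1 hd)), add_zero]
          rw [List.any_eq_true]
          refine ⟨d.factorization x.1, List.mem_range.2 (by omega), ?_⟩
          rw [Bool.and_eq_true, beq_iff_eq, beq_iff_eq]
          refine ⟨?_, ?_⟩
          · apply Nat.mod_eq_zero_of_dvd
            refine (Nat.ordProj_dvd d x.1).trans ?_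
            rw [h6]; exact he
          · rw [show x.2 - d.factorization x.1 = N.factorization x.1 by omega]
            exact h3 x.1 hxp
      · rw [if_neg hT, List.contains_iff_mem]
        apply hlist
        have hrπ : p.1 ∉ π := by
          intro hrπ
          apply hT
          obtain ⟨a, ha⟩ := hmemT p.1 hIso.prime hrπ hIso.dvd
          rw [List.any_eq_true]
          exact ⟨_, ha, by simp⟩
        have hrh : p.1 ∣ h := by
          have h1 := hIso.dvd
          rw [hcard] at h1
          rcases hIso.prime.dvd_mul.1 h1 with h2 | h2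
          · exfalso
            rcases hIso.prime.dvd_mul.1 h2 with h3 | h3
            · exact hrπ (hPπ p.1 hIso.prime h3)
            · rcases hIso.prime.dvd_mul.1 (h3.trans hkc) with h4 | h4
              · obtain ⟨y, hy, hPy⟩ := hipK p.1 hIso.prime h4
                have hSy := hS.cent_of_orderOf hm hy
                have h5 : Nat.card P ∣ p.1 := by
                  rw [← hSy.cent]
                  apply Subgroup.card_dvd_of_le
                  intro z hz
                  rw [mem_centralizer_singleton_iff]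
                  exact hPy z hz
                rcases (Nat.dvd_prime hIso.prime).1 h5 with h6 | h6
                · exact hP1 h6
                · exact hrπ (hPπ p.1 hIso.prime (by rw [h6]))
              · rcases hc with rfl | rfl
                · exact hIso.prime.one_lt.ne' (Nat.dvd_one.1 h4)
                · exact hIso.ne_two ((Nat.prime_dvd_prime_iff_eq hIso.prime Nat.prime_two).1 h4)
          · exact h2
        refine card_mem_hs hv hnd hn hIso hL (ip B) hrh ?_
        show h < n
        have hk0 : 0 < k := Nat.pos_of_ne_zero (by intro h0; rw [h0, mul_zero, zero_mul] at hcard; omega)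
        have hh0 : 0 < h := Nat.card_pos
        have hP2 : 2 ≤ Nat.card P := by
          have : 0 < Nat.card P := Nat.card_pos
          omega
        rw [hcard]
        calc h < 2 * 1 * h := by omega
          _ ≤ Nat.card P * k * h := Nat.mul_le_mul_right _ (Nat.mul_le_mul hP2 hk0)
  exact ⟨q, k, h, hq, mem_of_chk hn0.ne' hA hB q hc0 (fun x hx hqx => (hTl x (List.mem_filter.2 ⟨hx, hqx⟩)).2.2.2) htst,
    rfl, hPc, hcard.symm⟩

end

end Cfsg.Agent.H583.DPi
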